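import Cfsg.Agent.H368.RG.Engine

/-!
# S3509: the engine with the primes kept (helper318)

Same proof as `H368.RG.engine`; the family `z` without useful members is the old family with at most one member
exchanged.
-/

set_option autoImplicit false
open Cfsg

namespace Cfsg.Agent.H318.RG

open MulAction Cfsg.Agent.H106.RC Cfsg.Agent.H380.RC Cfsg.Agent.H873.RG Cfsg.Agent.H368.RG

section abs

variable {G Ω : Type} [Group G] [Finite G] [MulAction G Ω] {N D : Subgroup G}

/-- **The engine**, with the primes kept: all members but one have their old primes. -/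
theorem engine2 {S ι : Type} [Nonempty Ω] [Group S] [Finite S] [Finite ι] (hE : Env G Ω N) (e : N ≃* S)
    (hIH : IHx (Nat.card S)) {p : ℕ} (hp : p.Prime) {V : G → Prop} {U : G → Subgroup G} (hL : LRData D p V U)
    (hND : N ≤ D) (hpN : ∀ u ∈ D, u ^ p = 1 → u ∈ N)
    (hB : ∀ s ∈ D, (∃ m : ℕ, m.Coprime p ∧ s ^ m = 1) → pCore p ↥(N ⊓ Subgroup.centralizer {s}) = ⊥)
    {x : ι → G} {r : ι → ℕ}
    (hS : ∀ (z : ι → G) (i₀ : ι),
      (∀ i, z i ∈ D ∧ z i ≠ 1 ∧ (∃ r : ℕ, r.Prime ∧ r ≠ p ∧ z i ^ r = 1) ∧ ¬ Useful N D V (z i)) →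
      (∀ i j, z i * z j = z j * z i) → (∀ i, i ≠ i₀ → z i ^ r i = 1) → ¬ Cov Ω z)
    (hx : PF x r) (hcov : Cov Ω x) (hD : ∀ i, x i ∈ D) : False := by
  classical
  by_cases hpi : ∃ i, r i = p
  · obtain ⟨i₀, hi₀⟩ := hpi
    have hrne : ∀ i, i ≠ i₀ → r i ≠ p := fun i hi h => hi (hx.inj (h.trans hi₀.symm))
    have huN : x i₀ ∈ N := hpN _ (hD i₀) (by rw [← hi₀]; exact hx.pow i₀)
    by_cases hU : ∃ i, i ≠ i₀ ∧ Useful N D V (x i)
    · obtain ⟨i₁, hi₁, M, S', _, _, π, hMN, hMne, hperf, hπ, hker, hNSA, hnorm, hcen, v, hvM, hV⟩ := hU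
      have hnx : ∀ i, x i ∈ Subgroup.normalizer (M : Set G) := fun i => hnorm _ (hD i) (hx.comm i i₁)
      have h1 : ∀ ω : Ω, False ∨ M ≤ stabilizer G ω ∨ ∃ j, (∀ m ∈ M, x j * m = m * x j) ∧ x j • ω = ω :=
        fun ω => mstep hIH e hMN hMne hperf π hπ hker hNSA hx hnx (P := fun _ => False) (fun _ _ _ h => h)
          (fun ω => Or.inr (hcov ω)) ω
      by_cases hu : ∀ m ∈ M, x i₀ * m = m * x i₀
      · -- `u` centralises `M`
        let J : Set ι := {j | j ≠ i₀ ∧ ∀ m ∈ M, x j * m = m * x j}
        obtain ⟨s, hsD, hsm, hsc⟩ := exists_s hx hp J (fun i hi => hrne i hi.1) D hD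
        set C : Subgroup G := N ⊓ Subgroup.centralizer {s} with hCdef
        have hCx : ∀ c ∈ C, ∀ j ∈ J, c * x j = x j * c := fun c hc =>
          (hsc c).1 (Subgroup.mem_centralizer_singleton_iff.1 hc.2)
        have hCM : ∀ c ∈ C, c ∈ Subgroup.normalizer (M : Set G) := fun c hc =>
          hnorm c (hND hc.1) (hCx c hc i₁ ⟨hi₁, hcen⟩)
        set F : Subgroup G := C ⊓ Subgroup.centralizer (M : Set G) with hFdef
        have hFM : ∀ c ∈ F, ∀ m ∈ M, c * m = m * c := fun c hc m hm =>
          ((Subgroup.mem_centralizer_iff.1 hc.2) m hm).symm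
        have huF : x i₀ ∈ F := by
          refine ⟨⟨huN, ?_⟩, ?_⟩
          · exact Subgroup.mem_centralizer_singleton_iff.2 ((hsc _).2 fun i _ => hx.comm i₀ i)
          · exact Subgroup.mem_centralizer_iff.2 fun m hm => (hu m hm).symm
        obtain ⟨y, hyK, hy1, t, ht, htp, hyt⟩ := exists_y (C := C) (F := F) inf_le_left (hB s hsD hsm) (by
          intro c hc z hz
          exact ⟨C.mul_mem (C.mul_mem hc hz.1) (C.inv_mem hc), Subgroup.mem_centralizer_iff.2 fun m hm =>
            (normalizer_cent (hCM c hc) (hFM z hz) m hm).symm⟩) huF (hx.ne i₀)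
        have hyF : y ∈ F := nclo_le huF hyK
        have h2 : ∀ ω : Ω, (M ≤ stabilizer G ω ∨ ∃ j ∈ J, x j • ω = ω) ∨ y • ω = ω := by
          refine fun ω => nclo_fix (F := F) (u := x i₀) (P := fun ω => M ≤ stabilizer G ω ∨ ∃ j ∈ J, x j • ω = ω)
            ?_ ?_ hyK ω
          · rintro c hc ω (h | ⟨j, hj, h⟩)
            · left
              intro m hm
              have h3 : m • c • ω = c • ω := h hm
              rw [← mul_smul, ← hFM c hc m hm, mul_smul] at h3
              exact MulAction.injective c h3
            · right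
              refine ⟨j, hj, ?_⟩
              rw [← mul_smul, ← hCx c hc.1 j hj, mul_smul] at h
              exact MulAction.injective c h
          · intro ω
            rcases h1 ω with h | h | ⟨j, hj, h⟩
            · exact h.elim
            · exact Or.inl (Or.inl h)
            · by_cases hji : j = i₀
              · right; rw [← hji]; exact h
              · exact Or.inl (Or.inr ⟨j, ⟨hji, hj⟩, h⟩)
        refine kill_lr hE hL hV (ι := Option J) (x := fun o => o.elim y fun j => x j) (r := fun o => o.elim t fun j => r j)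
          ?_ ?_ ?_ ?_ ?_ ?_ ?_ ?_
        · rintro (_ | j)
          · exact hND hyF.1.1
          · exact hD j
        · rintro (_ | j)
          · exact hy1
          · exact hx.ne j
        · rintro (_ | j)
          · exact ht
          · exact hx.prime j
        · rintro (_ | j)
          · exact htp
          · exact hrne j j.2.1
        · rintro (_ | j)
          · exact hyt
          · exact hx.pow j
        · rintro (_ | i) (_ | j)
          · rfl
          · exact hCx y hyF.1 j j.2
          · exact (hCx y hyF.1 i i.2).symm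
          · exact hx.comm i j
        · rintro (_ | j)
          · exact hFM y hyF v hvM
          · exact j.2.2 v hvM
        · intro ω
          rcases h2 ω with (h | ⟨j, hj, h⟩) | h
          · exact Or.inl (h hvM)
          · exact Or.inr ⟨some ⟨j, hj⟩, h⟩
          · exact Or.inr ⟨none, h⟩
      · -- `u` is dropped
        refine kill_lr hE hL hV (ι := {j // ∀ m ∈ M, x j * m = m * x j}) (x := fun j => x j) (r := fun j => r j)
          (fun j => hD j) (fun j => hx.ne j) (fun j => hx.prime j)
          (fun j => hrne j fun h => hu (by rw [← h]; exact j.2)) (fun j => hx.pow j) (fun i j => hx.comm i j)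
          (fun j => j.2 v hvM) (fun ω => ?_)
        rcases h1 ω with h | h | ⟨j, hj, h⟩
        · exact h.elim
        · exact Or.inl (h hvM)
        · exact Or.inr ⟨⟨j, hj⟩, h⟩
    · -- no useful member besides `u`
      push Not at hU
      obtain ⟨s, hsD, hsm, hsc⟩ := exists_s hx hp {i | i ≠ i₀} (fun i hi => hrne i hi) D hD
      set C : Subgroup G := N ⊓ Subgroup.centralizer {s} with hCdef
      have hCx : ∀ c ∈ C, ∀ j, j ≠ i₀ → c * x j = x j * c := fun c hc =>
        (hsc c).1 (Subgroup.mem_centralizer_singleton_iff.1 hc.2)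
      have huC : x i₀ ∈ C := by
        exact ⟨huN, Subgroup.mem_centralizer_singleton_iff.2 ((hsc _).2 fun i _ => hx.comm i₀ i)⟩
      obtain ⟨y, hyK, hy1, t, ht, htp, hyt⟩ := exists_y (C := C) (F := C) le_rfl (hB s hsD hsm)
        (fun c hc z hz => C.mul_mem (C.mul_mem hc hz) (C.inv_mem hc)) huC (hx.ne i₀)
      have hyC : y ∈ C := nclo_le huC hyK
      have h2 : ∀ ω : Ω, (∃ j, j ≠ i₀ ∧ x j • ω = ω) ∨ y • ω = ω := by
        refine fun ω => nclo_fix (F := C) (u := x i₀) (P := fun ω => ∃ j, j ≠ i₀ ∧ x j • ω = ω) ?_ ?_ hyK ω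
        · rintro c hc ω ⟨j, hj, h⟩
          refine ⟨j, hj, ?_⟩
          rw [← mul_smul, ← hCx c hc j hj, mul_smul] at h
          exact MulAction.injective c h
        · intro ω
          obtain ⟨j, h⟩ := hcov ω
          by_cases hji : j = i₀
          · right; rw [← hji]; exact h
          · exact Or.inl ⟨j, hji, h⟩
      by_cases hy : Useful N D V y
      · obtain ⟨M, S', _, _, π, hMN, hMne, hperf, hπ, hker, hNSA, hnorm, hcen, v, hvM, hV⟩ := hy
        have hx' : PF (fun j : {j // j ≠ i₀} => x j) (fun j => r j) :=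
          ⟨fun i => hx.prime i, fun i j h => Subtype.ext (hx.inj h), fun i => hx.pow i, fun i => hx.ne i,
            fun i j => hx.comm i j⟩
        have h3 : ∀ ω : Ω, y • ω = ω ∨ M ≤ stabilizer G ω ∨
            ∃ j : {j // j ≠ i₀}, (∀ m ∈ M, x j * m = m * x j) ∧ x j • ω = ω := by
          refine fun ω => mstep hIH e hMN hMne hperf π hπ hker hNSA hx' (fun i => hnorm _ (hD i) (hCx y hyC i i.2).symm)
            (P := fun ω => y • ω = ω) ?_ ?_ ω
          · intro m hm ω h
            rw [← mul_smul, hcen m hm, mul_smul] at h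
            exact MulAction.injective m h
          · intro ω
            rcases h2 ω with ⟨j, hj, h⟩ | h
            · exact Or.inr ⟨⟨j, hj⟩, h⟩
            · exact Or.inl h
        refine kill_lr hE hL hV (ι := Option {j : {j // j ≠ i₀} // ∀ m ∈ M, x j * m = m * x j})
          (x := fun o => o.elim y fun j => x j.1) (r := fun o => o.elim t fun j => r j.1) ?_ ?_ ?_ ?_ ?_ ?_ ?_ ?_
        · rintro (_ | j)
          · exact hND hyC.1
          · exact hD j.1
        · rintro (_ | j)
          · exact hy1
          · exact hx.ne j.1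
        · rintro (_ | j)
          · exact ht
          · exact hx.prime j.1
        · rintro (_ | j)
          · exact htp
          · exact hrne j.1 j.1.2
        · rintro (_ | j)
          · exact hyt
          · exact hx.pow j.1
        · rintro (_ | i) (_ | j)
          · rfl
          · exact hCx y hyC j.1 j.1.2
          · exact (hCx y hyC i.1 i.1.2).symm
          · exact hx.comm i.1 j.1
        · rintro (_ | j)
          · exact hcen v hvM
          · exact j.2 v hvM
        · intro ω
          rcases h3 ω with h | h | ⟨j, hj, h⟩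
          · exact Or.inr ⟨none, h⟩
          · exact Or.inl (h hvM)
          · exact Or.inr ⟨some ⟨j, hj⟩, h⟩
      · refine hS (Function.update x i₀ y) i₀ (fun i => ?_) (fun i j => ?_)
          (fun i hi => by rw [Function.update_of_ne hi]; exact hx.pow i) (fun ω => ?_)
        · by_cases hi : i = i₀
          · subst hi
            rw [Function.update_self]
            exact ⟨hND hyC.1, hy1, ⟨t, ht, htp, hyt⟩, hy⟩
          · rw [Function.update_of_ne hi]
            exact ⟨hD i, hx.ne i, ⟨r i, hx.prime i, hrne i hi, hx.pow i⟩, hU i hi⟩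
        · by_cases hi : i = i₀ <;> by_cases hj : j = i₀
          · rw [hi, hj]
          · rw [hi, Function.update_self, Function.update_of_ne hj]
            exact hCx y hyC j hj
          · rw [hj, Function.update_self, Function.update_of_ne hi]
            exact (hCx y hyC i hi).symm
          · rw [Function.update_of_ne hi, Function.update_of_ne hj]
            exact hx.comm i j
        · rcases h2 ω with ⟨j, hj, h⟩ | h
          · exact ⟨j, by rwa [Function.update_of_ne hj]⟩
          · exact ⟨i₀, by rwa [Function.update_self]⟩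
  · push Not at hpi
    by_cases hU : ∃ i, Useful N D V (x i)
    · obtain ⟨i₁, M, S', _, _, π, hMN, hMne, hperf, hπ, hker, hNSA, hnorm, hcen, v, hvM, hV⟩ := hU
      have h1 : ∀ ω : Ω, False ∨ M ≤ stabilizer G ω ∨ ∃ j, (∀ m ∈ M, x j * m = m * x j) ∧ x j • ω = ω :=
        fun ω => mstep hIH e hMN hMne hperf π hπ hker hNSA hx (fun i => hnorm _ (hD i) (hx.comm i i₁))
          (P := fun _ => False) (fun _ _ _ h => h) (fun ω => Or.inr (hcov ω)) ω
      refine kill_lr hE hL hV (ι := {j // ∀ m ∈ M, x j * m = m * x j}) (x := fun j => x j) (r := fun j => r j)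
        (fun j => hD j) (fun j => hx.ne j) (fun j => hx.prime j) (fun j => hpi j) (fun j => hx.pow j)
        (fun i j => hx.comm i j) (fun j => j.2 v hvM) (fun ω => ?_)
      rcases h1 ω with h | h | ⟨j, hj, h⟩
      · exact h.elim
      · exact Or.inl (h hvM)
      · exact Or.inr ⟨⟨j, hj⟩, h⟩
    · push Not at hU
      obtain ⟨i₁, _⟩ := hcov (Classical.arbitrary Ω)
      exact hS x i₁ (fun i => ⟨hD i, hx.ne i, ⟨r i, hx.prime i, hpi i, hx.pow i⟩, hU i⟩) hx.comm (fun i _ => hx.pow i) hcov

end abs

end Cfsg.Agent.H318.RG
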