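import Cfsg.Agent.H56.RG.DichT
import Cfsg.Agent.H56.RG.LongE6

/-!
# S3509, `E6(q)` and `2E6(q)`: the elements of order `3` with `|Sx t| = 18` (helper318)

`nb_nine` : every root of `Sx t` has a neighbour in `Sx t`.
-/

set_option autoImplicit false
set_option linter.unusedSectionVars false

namespace Cfsg.Agent.H318.RG

open CoxeterSystem Cfsg Cfsg.Lie Cfsg.Lie.ChevalleyDatum
open Cfsg.Agent.ChevalleyStructure Cfsg.Agent.ChevalleyStructure.Elts Cfsg.Agent.ChevalleyStructure.CoxeterGeom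
  Cfsg.Agent.ChevalleyStructure.CoxeterGeomTypes Cfsg.Agent.ChevalleyStructure.NPerm
open Cfsg.Agent.Tits.Roots Cfsg.Agent.Tits.Core Cfsg.Agent.Nodes Cfsg.Agent.Nodes.Reps Cfsg.Agent.Nodes.BNOf
  Cfsg.Agent.Nodes.RGDChev Cfsg.Agent.Nodes.Bruhat
open Cfsg.Agent.KFacts.RgdField Cfsg.Agent.KFacts.RgdChevCoord Cfsg.Agent.BpExc.TorCent Cfsg.Agent.BpExc.TorChev
open Cfsg.Agent.H129.TorusChar Cfsg.Agent.H129.WData
open Cfsg.Agent.H469.Exc Cfsg.Agent.H316.U6 Cfsg.Agent.H169.RG Cfsg.Agent.H931.KC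
open Cfsg.Agent.H378.Eng Cfsg.Agent.H56.RG Cfsg.Agent.H56.RG.E6
open Cfsg.Agent.H378.E6Dat (dat)

universe u v

theorem nb9 : ∀ J : Fin 128, ((List.range 36).filter (inP J)).length = 9 →
    ((List.range 36).filter (inP J)).all (fun r => ((List.range 36).filter (inP J)).any (adj r)) = true := by
  decide +kernel

theorem nb_of_card {c : Fin 6 → ℕ} {c0 : ℕ} {P : List ℕ} (hnd : P.Nodup)
    (hPm : ∀ r, r ∈ P ↔ r < 36 ∧ ((∀ i, g r i ≠ 0 → c i = 0) ∨
      (c0 = 0 ∧ ∀ i, g r i ≠ Cfsg.Agent.H931.KC.hr chevE6 6 i → c i = 0)))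
    (h9 : P.length = 9) {r : ℕ} (hr : r ∈ P) : ∃ s ∈ P, adj r s = true := by
  obtain ⟨J, hJ⟩ := exists_bits fun i => if h : (i : ℕ) < 6 then decide (c ⟨i, h⟩ = 0) else decide (c0 = 0)
  have hb : ∀ i : Fin 6, (J : ℕ).testBit i = decide (c i = 0) := by
    intro i
    have h1 := hJ ⟨i, by omega⟩
    rw [dif_pos i.2] at h1
    exact h1
  have h6 : (J : ℕ).testBit 6 = decide (c0 = 0) := by
    have h1 := hJ 6
    rw [dif_neg (by decide)] at h1
    exact h1
  have hmem : ∀ r, r ∈ (List.range 36).filter (inP J) ↔ r ∈ P := by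
    intro r
    rw [hPm, List.mem_filter, List.mem_range]
    refine and_congr_right fun hr => ?_
    unfold inP
    simp only [Bool.or_eq_true, Bool.and_eq_true, List.all_eq_true, List.mem_range, beq_iff_eq]
    refine or_congr ?_ (and_congr ?_ ?_)
    · constructor
      · intro h i hi
        rcases h i i.2 with h | h
        · exact absurd h hi
        · rw [hb, decide_eq_true_iff] at h
          exact h
      · intro h i hi
        by_cases h0 : (dat.gam r).getD i 0 = 0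
        · exact Or.inl h0
        · right
          have h5 := h ⟨i, hi⟩ h0
          rw [show (J : ℕ).testBit i = (J : ℕ).testBit ((⟨i, hi⟩ : Fin 6) : ℕ) from rfl, hb, decide_eq_true_iff]
          exact h5
    · rw [h6, decide_eq_true_iff]
    · constructor
      · intro h i hi
        rcases h i i.2 with h | h
        · rw [gam35] at h
          exact absurd h hi
        · rw [hb, decide_eq_true_iff] at h
          exact h
      · intro h i hi
        by_cases h0 : (dat.gam r).getD i 0 = (dat.gam 35).getD i 0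
        · exact Or.inl h0
        · right
          have h5 := h ⟨i, hi⟩ (by rw [← gam35]; exact h0)
          rw [show (J : ℕ).testBit i = (J : ℕ).testBit ((⟨i, hi⟩ : Fin 6) : ℕ) from rfl, hb, decide_eq_true_iff]
          exact h5
  have hlen : ((List.range 36).filter (inP J)).length = P.length := by
    refine List.Perm.length_eq ?_
    exact (List.perm_ext_iff_of_nodup ((List.nodup_range (n := 36)).filter _) hnd).2 hmem
  have h1 := nb9 J (hlen.trans h9)
  rw [List.all_eq_true] at h1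
  have h2 := h1 r ((hmem r).2 hr)
  rw [List.any_eq_true] at h2
  obtain ⟨s, hs, h3⟩ := h2
  exact ⟨s, (hmem s).1 hs, h3⟩

variable {M : CoxeterMatrix (Fin 6)} {hp : IsType chevE6 6 M}
variable {r q : ℕ} [hrp : Fact r.Prime] {K₀ : Type v} [Group K₀] {m : MData hp r q K₀} {s : ↥(chevE6.group (KK r))}

/-- **Neighbours.** -/
theorem nb_nine [Finite M.Group] (f : TorForm m s) {ℓ : ℕ} (hℓ : ℓ.Prime) (hℓr : ℓ ≠ r) (hs : s ^ ℓ = 1)
    (h18 : (Sx M.toCoxeterSystem hp.isCartan (ch hp) f.t).ncard = 18) {β : Fin 6 → ℤ}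
    (hβ : β ∈ Sx M.toCoxeterSystem hp.isCartan (ch hp) f.t) :
    ∃ b ∈ Sx M.toCoxeterSystem hp.isCartan (ch hp) f.t, IsRoot M.toCoxeterSystem hp.isCartan (β - b) := by
  have ht := f.pow_eq_one hs
  have hnk : (ℓ : KK r) ≠ 0 := by
    intro h
    rw [CharP.cast_eq_zero_iff (KK r) r ℓ] at h
    exact hℓr ((Nat.prime_dvd_prime_iff_eq hrp.out hℓ).1 h).symm
  have : NeZero (ℓ : KK r) := ⟨hnk⟩
  obtain ⟨ζ, hζ⟩ := HasEnoughRootsOfUnity.exists_primitiveRoot (KK r) ℓ
  obtain ⟨w, c, c0, K, hch, hSJ, π, hπ⟩ := Cfsg.Agent.H931.KC.exists_kac_theta hp hℓ.pos hζ f.mem ht f.stab f.pos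
  set S := Sx M.toCoxeterSystem hp.isCartan (ch hp) f.t with hSdef
  have hne : ¬ (c0 = 0 ∧ ∀ i, c i = 0) := by
    rintro ⟨h0, h1⟩
    obtain ⟨i, hi⟩ := K.ne h0
    exact hi (h1 i)
  have hSr : ∀ a ∈ S, IsRoot M.toCoxeterSystem hp.isCartan a := fun a ha => ha.1
  have hneg : ∀ a ∈ S, -a ∈ S := fun a ha => Sx_neg f.mem ha
  have hc : ∀ a, IsRoot M.toCoxeterSystem hp.isCartan a → 0 ≤ a → (rep M.toCoxeterSystem hp.isCartan w a ∈ S ↔
      (∀ i, a i ≠ 0 → c i = 0) ∨ (c0 = 0 ∧ ∀ i, a i ≠ Cfsg.Agent.H931.KC.hr chevE6 6 i → c i = 0)) := by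
    intro a ha h0
    rw [← Cfsg.Agent.H931.KC.dvd_iff hp K ha h0, ← hζ.zpow_eq_one_iff_dvd]
    have h1 : cX hp f.t (rep M.toCoxeterSystem hp.isCartan w a) = ζ ^ (∑ i, a i * (c i : ℤ)) := hch a
    rw [← h1, hSdef, mem_Sx_iff f.mem]
    exact ⟨fun h => h.2, fun h => ⟨ha.act w, h⟩⟩
  obtain ⟨P, Q, hnd, hPm, hQ, hcase⟩ := exists_tab c c0 hne
  have hP : ∀ r ∈ P, r < 36 := fun r hr => ((hPm r).1 hr).1
  have hS : ∀ a, a ∈ S ↔ ME hp w P a := by
    intro a
    constructor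
    · intro ha
      have h1 : IsRoot M.toCoxeterSystem hp.isCartan (rep M.toCoxeterSystem hp.isCartan w⁻¹ a) := (hSr a ha).act w⁻¹
      obtain ⟨r, hr, h2⟩ := root_iff_g hp h1
      have h3 : a = rep M.toCoxeterSystem hp.isCartan w (g r) ∨ a = -rep M.toCoxeterSystem hp.isCartan w (g r) := by
        rcases h2 with h2 | h2
        · left; rw [← h2, rep_apply_inv]
        · right; rw [← map_neg, ← h2, rep_apply_inv]
      refine ⟨r, (hPm r).2 ⟨hr, (hc _ (root_g hp hr) (g_nonneg hr)).1 ?_⟩, h3⟩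
      rcases h3 with h3 | h3
      · rw [← h3]; exact ha
      · have := hneg a ha
        rwa [h3, neg_neg] at this
    · rintro ⟨r, hr, h⟩
      have h1 := (hPm r).1 hr
      have h2 := (hc _ (root_g hp h1.1) (g_nonneg h1.1)).2 h1.2
      rcases h with h | h
      · rw [h]; exact h2
      · rw [h]; exact hneg _ h2
  have hcard := ncard_S hp hS hP hnd
  have h9 : P.length = 9 := by omega
  obtain ⟨a, ha, hβa⟩ := (hS β).1 hβ
  obtain ⟨b, hb, hab⟩ := nb_of_card hnd hPm h9 ha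
  have H := sl6 hp
  obtain ⟨-, b', hbS, h1, h2, h3⟩ := (mem_Psi hp hS hP hQ (a := β)).1 ⟨a, (hQ a).2 ⟨ha, b, hb, hab⟩, hβa⟩
  rcases H.rng β b' (hSr _ hβ) (hSr _ hbS) with h | h | h | h | h
  · exact absurd h h1
  · exact absurd h h2
  · exact absurd h h3
  · exact ⟨b', hbS, H.sub β b' (hSr _ hβ) (hSr _ hbS) h⟩
  · refine ⟨-b', hneg b' hbS, ?_⟩
    rw [sub_neg_eq_add]
    exact H.root_add (hSr _ hβ) (hSr _ hbS) h

end Cfsg.Agent.H318.RG
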