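import Cfsg.Agent.H318.RG.TransTwo

/-!
# S3509: the numbers for `E6(q)` and `2E6(q)`, `q ≥ 3` (helper318)

`Bx q r` : bound for the centralizers of the not useful elements of prime order `r`; `num_ok` : the sum over the primes of
the members, one counted twice, is `< 1` if the product of the primes is at most `(q + 1) ^ 6` and the degrees are at least
`q ^ 8 (q ^ 3 - 1)`.
-/

set_option autoImplicit false

namespace Cfsg.Agent.H318.RG

/-- the bound for the order `r` -/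
def Bx (q r : ℕ) : ℕ := if (q = 4 ∨ q = 9) ∧ r = 5 then q ^ 19 * (q + 1) else q ^ 16 * (q + 1) ^ 2

/-- the bound for all orders -/
def Bmx (q : ℕ) : ℕ := if q = 4 ∨ q = 9 then q ^ 19 * (q + 1) else q ^ 16 * (q + 1) ^ 2

theorem Bx_le (q r : ℕ) : Bx q r ≤ Bmx q := by
  unfold Bx Bmx
  by_cases h : q = 4 ∨ q = 9
  · rw [if_pos h]
    split_ifs
    · exact le_refl _
    · rcases h with rfl | rfl <;> norm_num
  · rw [if_neg h, if_neg fun h' => h h'.1]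

theorem FB_anti {d d' b : ℕ} (h0 : 0 < d) (h : d ≤ d') : FB d' b ≤ FB d b := by
  unfold FB
  have h1 : (d : ℝ) ≤ d' := by exact_mod_cast h
  have h2 : (0 : ℝ) < d := by exact_mod_cast h0
  have h3 : (1 : ℝ) / (d' + 1) ≤ 1 / (d + 1) := one_div_le_one_div_of_le (by positivity) (by linarith)
  have h4 : √(b : ℝ) / d' ≤ √(b : ℝ) / d := div_le_div_of_nonneg_left (Real.sqrt_nonneg _) h2 h1
  linarith

/-- upper bound for the ratio -/
theorem FB_le {d b : ℕ} {c : ℝ} (h0 : 0 < d) (hc : 0 ≤ c) (h : (b : ℝ) ≤ c ^ 2) : FB d b ≤ (1 + c) / d := by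
  unfold FB
  have h2 : (0 : ℝ) < d := by exact_mod_cast h0
  have h3 : (1 : ℝ) / (d + 1) ≤ 1 / d := one_div_le_one_div_of_le h2 (by linarith)
  have h4 : √(b : ℝ) ≤ c := by
    rw [show c = √(c ^ 2) by rw [Real.sqrt_sq hc]]
    exact Real.sqrt_le_sqrt h
  have h5 : √(b : ℝ) / d ≤ c / d := div_le_div_of_nonneg_right h4 h2.le
  rw [add_div]
  linarith

/-- sums over primes with at most one exception -/
theorem sum_le_card {P : Finset ℕ} {f : ℕ → ℝ} {r₀ : ℕ} {a b : ℝ} (hb : 0 ≤ b) (h : ∀ r ∈ P, r ≠ r₀ → f r ≤ a) (ha : 0 ≤ a)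
    (h0 : f r₀ ≤ b) : ∑ r ∈ P, f r ≤ P.card * a + b := by
  classical
  by_cases h1 : r₀ ∈ P
  · rw [← Finset.add_sum_erase P f h1]
    have h2 : ∑ r ∈ P.erase r₀, f r ≤ (P.erase r₀).card • a :=
      Finset.sum_le_card_nsmul _ _ _ fun r hr => h r (Finset.mem_of_mem_erase hr) (Finset.ne_of_mem_erase hr)
    rw [nsmul_eq_mul] at h2
    have h3 : ((P.erase r₀).card : ℝ) ≤ P.card := by exact_mod_cast Finset.card_erase_le
    have h4 : ((P.erase r₀).card : ℝ) * a ≤ P.card * a := mul_le_mul_of_nonneg_right h3 ha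
    linarith
  · have h2 : ∑ r ∈ P, f r ≤ P.card • a :=
      Finset.sum_le_card_nsmul _ _ _ fun r hr => h r hr fun h3 => h1 (by rw [← h3]; exact hr)
    rw [nsmul_eq_mul] at h2
    linarith

theorem two_pow_le {P : Finset ℕ} (hP : ∀ r ∈ P, r.Prime) : 2 ^ P.card ≤ ∏ r ∈ P, r := by
  rw [← Finset.prod_const]
  exact Finset.prod_le_prod' fun r hr => (hP r hr).two_le

/-- number of primes with a given product, small primes listed -/
theorem card_lt_of {P : Finset ℕ} {m k C : ℕ} {S : Finset ℕ} (hP : ∀ r ∈ P, r ∈ S ∨ m ≤ r) (hm : 1 ≤ m)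
    (hprod : ∏ r ∈ P, r ≤ C) (hdec : ∀ A ∈ S.powerset, C < (∏ r ∈ A, r) * m ^ (k - A.card)) :
    P.card < k := by
  classical
  by_contra hcon
  push Not at hcon
  have h1 := Finset.prod_filter_mul_prod_filter_not P (fun r => r ∈ S) fun r => r
  have h2 : m ^ (P.filter fun r => ¬ r ∈ S).card ≤ ∏ r ∈ P.filter (fun r => ¬ r ∈ S), r := by
    rw [← Finset.prod_const]
    refine Finset.prod_le_prod' fun r hr => ?_
    rw [Finset.mem_filter] at hr
    exact (hP r hr.1).resolve_left hr.2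
  have h3 := Finset.card_filter_add_card_filter_not (s := P) (fun r => r ∈ S)
  have h4 := hdec (P.filter fun r => r ∈ S) (Finset.mem_powerset.2 fun r hr => (Finset.mem_filter.1 hr).2)
  have h5 : m ^ (k - (P.filter fun r => r ∈ S).card) ≤ m ^ (P.filter fun r => ¬ r ∈ S).card :=
    Nat.pow_le_pow_right hm (by omega)
  have h6 : (∏ r ∈ P.filter (fun r => r ∈ S), r) * m ^ (k - (P.filter fun r => r ∈ S).card) ≤ ∏ r ∈ P, r := by
    rw [← h1]
    exact Nat.mul_le_mul_left _ (h5.trans h2)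
  omega

theorem card_three {P : Finset ℕ} (hP : ∀ r ∈ P, r.Prime ∧ r ≠ 3) (hprod : ∏ r ∈ P, r ≤ (3 + 1) ^ 6) : P.card < 5 := by
  refine card_lt_of (S := {2, 5, 7}) (m := 11) (C := (3 + 1) ^ 6) (fun r hr => ?_) (by norm_num)
    hprod (by decide)
  by_contra h
  push Not at h
  obtain ⟨h1, h2⟩ := h
  obtain ⟨h3, h4⟩ := hP r hr
  interval_cases r <;> first | (norm_num at h1; done) | (norm_num at h3; done) | (norm_num at h4; done)

theorem card_four {P : Finset ℕ} (hP : ∀ r ∈ P, r.Prime ∧ r ≠ 2) (hprod : ∏ r ∈ P, r ≤ (4 + 1) ^ 6) : P.card < 6 := by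
  refine card_lt_of (S := {3, 5, 7, 11}) (m := 13) (C := (4 + 1) ^ 6) (fun r hr => ?_) (by norm_num)
    hprod (by decide)
  by_contra h
  push Not at h
  obtain ⟨h1, h2⟩ := h
  obtain ⟨h3, h4⟩ := hP r hr
  interval_cases r <;> first | (norm_num at h1; done) | (norm_num at h3; done) | (norm_num at h4; done)

theorem pow_seven {q : ℕ} (hq : 7 ≤ q) : (q + 1) ^ 2 ≤ 2 ^ (q - 1) := by
  obtain ⟨n, rfl⟩ := Nat.exists_eq_add_of_le hq
  induction n with
  | zero => norm_num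
  | succ n ih =>
    have h1 := ih (by omega)
    have e : 7 + (n + 1) - 1 = (7 + n - 1) + 1 := by omega
    rw [e, pow_succ]
    have h2 : (7 + (n + 1) + 1) ^ 2 ≤ (7 + n + 1) ^ 2 * 2 := by nlinarith
    exact h2.trans (Nat.mul_le_mul_right 2 h1)

/-- **The numbers.** -/
theorem num_ok {q p d : ℕ} (hq : 3 ≤ q) (hp : p.Prime) (hpq : p ∣ q) (hd : q ^ 8 * (q ^ 3 - 1) ≤ d) {P : Finset ℕ}
    (hP : ∀ r ∈ P, r.Prime ∧ r ≠ p) (hprod : ∏ r ∈ P, r ≤ (q + 1) ^ 6) :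
    ∑ r ∈ P, FB d (Bx q r) + FB d (Bmx q) < 1 := by
  have hq3 : 1 < q ^ 3 := Nat.one_lt_pow (by norm_num) (by omega)
  have hd0 : 0 < q ^ 8 * (q ^ 3 - 1) := Nat.mul_pos (by positivity) (by omega)
  set d₀ := q ^ 8 * (q ^ 3 - 1) with hd₀
  have h1 : ∑ r ∈ P, FB d (Bx q r) + FB d (Bmx q) ≤ ∑ r ∈ P, FB d₀ (Bx q r) + FB d₀ (Bmx q) :=
    add_le_add (Finset.sum_le_sum fun r _ => FB_anti hd0 hd) (FB_anti hd0 hd)
  refine lt_of_le_of_lt h1 ?_
  have hd₀R : (d₀ : ℝ) = (q : ℝ) ^ 8 * ((q : ℝ) ^ 3 - 1) := by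
    rw [hd₀, Nat.cast_mul, Nat.cast_sub hq3.le]
    push_cast
    ring
  have hqR : (3 : ℝ) ≤ q := by exact_mod_cast hq
  have hq8 : (0 : ℝ) < (q : ℝ) ^ 8 := by positivity
  have hq1 : (1 : ℝ) ≤ (q : ℝ) ^ 8 := one_le_pow₀ (by linarith)
  have hq31 : (0 : ℝ) < (q : ℝ) ^ 3 - 1 := by
    have : (1 : ℝ) < (q : ℝ) ^ 3 := by exact_mod_cast hq3
    linarith
  -- the generic bound
  have hF : FB d₀ (q ^ 16 * (q + 1) ^ 2) ≤ ((q : ℝ) + 2) / ((q : ℝ) ^ 3 - 1) := by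
    refine (FB_le (c := (q : ℝ) ^ 8 * (q + 1)) hd0 (by positivity) (le_of_eq (by push_cast; ring))).trans ?_
    rw [hd₀R, div_le_div_iff₀ (by positivity) hq31]
    nlinarith [mul_pos hq8 hq31, mul_nonneg (sub_nonneg.2 hq1) hq31.le]
  have hF0 := FB_nonneg d₀ (q ^ 16 * (q + 1) ^ 2)
  have hB' : ∀ r ∈ P, r ≠ 5 → FB d₀ (Bx q r) ≤ ((q : ℝ) + 2) / ((q : ℝ) ^ 3 - 1) := by
    intro r _ hr
    rw [Bx, if_neg fun h => hr h.2]
    exact hF
  have hpr : ∀ r ∈ P, r.Prime := fun r hr => (hP r hr).1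
  by_cases h4 : q = 4
  · -- `q = 4`
    subst h4
    have hp2 : p = 2 := (Nat.prime_dvd_prime_iff_eq hp Nat.prime_two).1
      (hp.dvd_of_dvd_pow (show p ∣ 2 ^ 2 from hpq))
    subst hp2
    have hcard : (P.card : ℝ) ≤ 5 := by
      have := card_four hP hprod
      exact_mod_cast Nat.lt_succ_iff.1 this
    have hG : FB d₀ (4 ^ 16 * (4 + 1) ^ 2) ≤ (1 + 4 ^ 8 * 5) / 4128768 := by
      have e : (d₀ : ℝ) = 4128768 := by rw [hd₀R]; norm_num
      have := FB_le (d := d₀) (b := 4 ^ 16 * (4 + 1) ^ 2) (c := 4 ^ 8 * 5) hd0 (by norm_num) (by norm_num)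
      rwa [e] at this
    have hE : FB d₀ (4 ^ 19 * (4 + 1)) ≤ (1 + 4 ^ 8 * 17.9) / 4128768 := by
      have e : (d₀ : ℝ) = 4128768 := by rw [hd₀R]; norm_num
      have := FB_le (d := d₀) (b := 4 ^ 19 * (4 + 1)) (c := 4 ^ 8 * 17.9) hd0 (by norm_num) (by norm_num)
      rwa [e] at this
    have hs : ∑ r ∈ P, FB d₀ (Bx 4 r) ≤ P.card * ((1 + 4 ^ 8 * 5) / 4128768) + (1 + 4 ^ 8 * 17.9) / 4128768 :=
      sum_le_card (P := P) (f := fun r => FB d₀ (Bx 4 r)) (r₀ := 5) (a := (1 + 4 ^ 8 * 5) / 4128768)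
      (b := (1 + 4 ^ 8 * 17.9) / 4128768) (by norm_num) (fun r _ hr => by
        show FB d₀ (Bx 4 r) ≤ _
        rw [Bx, if_neg fun h => hr h.2]
        exact hG) (by norm_num) (by
        show FB d₀ (Bx 4 5) ≤ _
        rw [Bx, if_pos ⟨Or.inl rfl, rfl⟩]
        exact hE)
    have hm : FB d₀ (Bmx 4) ≤ (1 + 4 ^ 8 * 17.9) / 4128768 := by
      rw [Bmx, if_pos (Or.inl rfl)]
      exact hE
    have h9 : (P.card : ℝ) * ((1 + 4 ^ 8 * 5) / 4128768) ≤ 5 * ((1 + 4 ^ 8 * 5) / 4128768) :=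
      mul_le_mul_of_nonneg_right hcard (by norm_num)
    have h10 : (5 : ℝ) * ((1 + 4 ^ 8 * 5) / 4128768) + (1 + 4 ^ 8 * 17.9) / 4128768 + (1 + 4 ^ 8 * 17.9) / 4128768 < 1 := by
      norm_num
    exact lt_of_le_of_lt (add_le_add (hs.trans (add_le_add h9 le_rfl)) hm) h10
  by_cases h9 : q = 9
  · subst h9
    have hcard : (P.card : ℝ) ≤ 19 := by
      have h2 := (two_pow_le hpr).trans hprod
      have h3 : (2 : ℕ) ^ P.card < 2 ^ 20 := lt_of_le_of_lt h2 (by norm_num)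
      have := (Nat.pow_lt_pow_iff_right (by norm_num)).1 h3
      exact_mod_cast Nat.lt_succ_iff.1 this
    have hE : FB d₀ (9 ^ 19 * (9 + 1)) ≤ (1 + 9 ^ 8 * 86) / 31338012888 := by
      have e : (d₀ : ℝ) = 31338012888 := by rw [hd₀R]; norm_num
      have := FB_le (d := d₀) (b := 9 ^ 19 * (9 + 1)) (c := 9 ^ 8 * 86) hd0 (by norm_num) (by norm_num)
      rwa [e] at this
    have hs : ∑ r ∈ P, FB d₀ (Bx 9 r) ≤ P.card * ((((9 : ℕ) : ℝ) + 2) / (((9 : ℕ) : ℝ) ^ 3 - 1)) +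
        (1 + 9 ^ 8 * 86) / 31338012888 := sum_le_card (P := P) (f := fun r => FB d₀ (Bx 9 r)) (r₀ := 5)
      (a := (((9 : ℕ) : ℝ) + 2) / (((9 : ℕ) : ℝ) ^ 3 - 1))
      (b := (1 + 9 ^ 8 * 86) / 31338012888) (by norm_num) hB' (by norm_num) (by
        show FB d₀ (Bx 9 5) ≤ _
        rw [Bx, if_pos ⟨Or.inr rfl, rfl⟩]
        exact hE)
    have hm : FB d₀ (Bmx 9) ≤ (1 + 9 ^ 8 * 86) / 31338012888 := by
      rw [Bmx, if_pos (Or.inr rfl)]
      exact hE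
    have h11 : (P.card : ℝ) * ((((9 : ℕ) : ℝ) + 2) / (((9 : ℕ) : ℝ) ^ 3 - 1)) ≤
        19 * ((((9 : ℕ) : ℝ) + 2) / (((9 : ℕ) : ℝ) ^ 3 - 1)) :=
      mul_le_mul_of_nonneg_right hcard (by norm_num)
    have h10 : (19 : ℝ) * ((((9 : ℕ) : ℝ) + 2) / (((9 : ℕ) : ℝ) ^ 3 - 1)) + (1 + 9 ^ 8 * 86) / 31338012888 +
        (1 + 9 ^ 8 * 86) / 31338012888 < 1 := by
      norm_num
    exact lt_of_le_of_lt (add_le_add (hs.trans (add_le_add h11 le_rfl)) hm) h10
  -- the other `q`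
  have hne : ¬ (q = 4 ∨ q = 9) := by
    rintro (h | h)
    · exact h4 h
    · exact h9 h
  have hall : ∀ r, Bx q r = q ^ 16 * (q + 1) ^ 2 := fun r => by rw [Bx, if_neg fun h => hne h.1]
  have hsum : ∑ r ∈ P, FB d₀ (Bx q r) + FB d₀ (Bmx q) = ((P.card : ℝ) + 1) * FB d₀ (q ^ 16 * (q + 1) ^ 2) := by
    rw [Finset.sum_congr rfl fun r _ => by rw [hall r], Finset.sum_const, nsmul_eq_mul, Bmx, if_neg hne]
    ring
  rw [hsum]
  by_cases h3 : q = 3
  · subst h3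
    have hp3 : p = 3 := (Nat.prime_dvd_prime_iff_eq hp Nat.prime_three).1 hpq
    subst hp3
    have hcard : (P.card : ℝ) ≤ 4 := by
      have := card_three hP hprod
      exact_mod_cast Nat.lt_succ_iff.1 this
    have e : (d₀ : ℝ) = 170586 := by rw [hd₀R]; norm_num
    have hG : FB d₀ (3 ^ 16 * (3 + 1) ^ 2) ≤ (1 + 3 ^ 8 * 4) / 170586 := by
      have := FB_le (d := d₀) (b := 3 ^ 16 * (3 + 1) ^ 2) (c := 3 ^ 8 * 4) hd0 (by norm_num) (by norm_num)
      rwa [e] at this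
    have h10 : ((P.card : ℝ) + 1) * FB d₀ (3 ^ 16 * (3 + 1) ^ 2) ≤ 5 * ((1 + 3 ^ 8 * 4) / 170586) := by
      refine mul_le_mul (by linarith) hG hF0 (by norm_num)
    have h11 : (5 : ℝ) * ((1 + 3 ^ 8 * 4) / 170586) < 1 := by norm_num
    exact lt_of_le_of_lt h10 h11
  have h5 : 5 ≤ q := by omega
  by_cases h7 : 7 ≤ q
  · have h2 := (two_pow_le hpr).trans hprod
    have h6 : 2 ^ P.card ≤ 2 ^ (3 * (q - 1)) := by
      calc 2 ^ P.card ≤ (q + 1) ^ 6 := h2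
        _ = ((q + 1) ^ 2) ^ 3 := by ring
        _ ≤ (2 ^ (q - 1)) ^ 3 := Nat.pow_le_pow_left (pow_seven h7) 3
        _ = 2 ^ (3 * (q - 1)) := by rw [← pow_mul, mul_comm]
    have h8 : P.card ≤ 3 * (q - 1) := (Nat.pow_le_pow_iff_right (by norm_num)).1 h6
    have h12 : (P.card : ℝ) + 1 ≤ 3 * q - 2 := by
      have h13 : P.card + 3 ≤ 3 * q := by omega
      have h14 : ((P.card + 3 : ℕ) : ℝ) ≤ ((3 * q : ℕ) : ℝ) := by exact_mod_cast h13
      push_cast at h14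
      linarith
    have h15 : ((P.card : ℝ) + 1) * FB d₀ (q ^ 16 * (q + 1) ^ 2) ≤
        (3 * q - 2) * (((q : ℝ) + 2) / ((q : ℝ) ^ 3 - 1)) :=
      mul_le_mul h12 hF hF0 (by linarith)
    refine lt_of_le_of_lt h15 ?_
    rw [← mul_div_assoc, div_lt_one hq31]
    have hq7 : (7 : ℝ) ≤ q := by exact_mod_cast h7
    nlinarith [mul_nonneg (sub_nonneg.2 hq7) (sub_nonneg.2 hq7), mul_nonneg (mul_nonneg (sub_nonneg.2 hq7)
      (sub_nonneg.2 hq7)) (sub_nonneg.2 hq7)]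
  · have h2 := (two_pow_le hpr).trans hprod
    have h6 : (2 : ℕ) ^ P.card < 2 ^ 17 := by
      refine lt_of_le_of_lt h2 ?_
      calc (q + 1) ^ 6 ≤ 7 ^ 6 := Nat.pow_le_pow_left (by omega) 6
        _ < 2 ^ 17 := by norm_num
    have h8 := (Nat.pow_lt_pow_iff_right (by norm_num)).1 h6
    have h12 : (P.card : ℝ) + 1 ≤ 17 := by
      have : ((P.card + 1 : ℕ) : ℝ) ≤ 17 := by exact_mod_cast h8
      push_cast at this
      exact this
    by_cases h55 : q = 5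
    · subst h55
      have h8' : (2 : ℕ) ^ P.card < 2 ^ 16 := lt_of_le_of_lt h2 (by norm_num)
      have h8'' := (Nat.pow_lt_pow_iff_right (by norm_num)).1 h8'
      have h12' : (P.card : ℝ) + 1 ≤ 16 := by
        have : ((P.card + 1 : ℕ) : ℝ) ≤ 16 := by exact_mod_cast h8''
        push_cast at this
        exact this
      have h15 := mul_le_mul h12' hF hF0 (by norm_num)
      refine lt_of_le_of_lt h15 ?_
      norm_num
    · have h66 : q = 6 := by omega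
      subst h66
      have h15 := mul_le_mul h12 hF hF0 (by norm_num)
      refine lt_of_le_of_lt h15 ?_
      norm_num

end Cfsg.Agent.H318.RG
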