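import Cfsg.Agent.H169.RG.Toral
import Cfsg.Agent.H931.KC.Tor

/-!
# S3509, `E6(q)` and `2E6(q)`: the rank one lemma (helper318)

`s ∈ Y^σ` of prime order `ℓ ≠ r`, `t` its toral form, `c`, `c0` the Kac coordinates of `t`. If exactly two extended nodes
have coordinates `≠ 0`, the node `α₄` (index `3`) and an end, then `5 ≤ ℓ` and `ℓ ∣ q - 1` or `ℓ ∣ q + 1`.
-/

set_option autoImplicit false
set_option linter.unusedSectionVars false

namespace Cfsg.Agent.H318.RG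

open CoxeterSystem Cfsg Cfsg.Lie Cfsg.Lie.ChevalleyDatum
open Cfsg.Agent.ChevalleyStructure Cfsg.Agent.ChevalleyStructure.Elts Cfsg.Agent.ChevalleyStructure.CoxeterGeom
  Cfsg.Agent.ChevalleyStructure.CoxeterGeomTypes Cfsg.Agent.ChevalleyStructure.NPerm
open Cfsg.Agent.Tits.Roots Cfsg.Agent.Tits.Core Cfsg.Agent.Nodes Cfsg.Agent.Nodes.Reps Cfsg.Agent.Nodes.BNOf
  Cfsg.Agent.Nodes.RGDChev Cfsg.Agent.Nodes.Bruhat Cfsg.Agent.Nodes.NormalForm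
open Cfsg.Agent.KFacts.RgdField Cfsg.Agent.KFacts.RgdChevCoord
open Cfsg.Agent.BpExc Cfsg.Agent.BpExc.TorCent Cfsg.Agent.BpExc.TorChev Cfsg.Agent.BpExc.Tow
  Cfsg.Agent.BpExc.TowChev Cfsg.Agent.BpExc.Fr Cfsg.Agent.BpExc.Pair Cfsg.Agent.BpExc.LangFr Cfsg.Agent.GpExc.Field
open Cfsg.Agent.H469.Exc Cfsg.Agent.H316.U6 Cfsg.Agent.H169.RG Cfsg.Agent.H931.KC
open Cfsg.Agent.H129.TorusChar Cfsg.Agent.H129.WData

universe u v

/-- **The abstract rank one lemma.** -/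
theorem rank_one {l : ℕ} {ℓ q κ : ℤ} (hℓ : Prime ℓ) {R : (Fin l → ℤ) → Prop} {θ : (Fin l → ℤ) ≃+ (Fin l → ℤ)}
    (hθ : ∀ a, R a → R (θ a)) (hθ' : ∀ a, R a → R (θ.symm a)) {b φ : (Fin l → ℤ) →+ ℤ}
    (h1 : ∀ x, ℓ ∣ b (θ x) - q * b x) (hκ : ¬ ℓ ∣ κ) (h2 : ∀ x, ℓ ∣ b x - κ * φ x)
    (h3 : ∀ a, R a → ℓ ∣ φ a → φ a = 0)
    (h4 : ∀ ψ : (Fin l → ℤ) →+ ℤ, (∀ a, R a → φ a = 0 → ψ a = 0) → ∃ m : ℤ, ∀ x, ψ x = m * φ x)
    {x₀ : Fin l → ℤ} (hx₀ : ¬ ℓ ∣ b x₀) (hq : ¬ ℓ ∣ q) : ℓ ∣ q - 1 ∨ ℓ ∣ q + 1 := by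
  have hb : ∀ x, ℓ ∣ b x ↔ ℓ ∣ φ x := by
    intro x
    constructor
    · intro h
      have h5 : ℓ ∣ κ * φ x := by
        have := dvd_sub h (h2 x)
        rwa [sub_sub_cancel] at this
      exact (hℓ.dvd_or_dvd h5).resolve_left hκ
    · intro h
      have := dvd_add (h2 x) (Dvd.dvd.mul_left h κ)
      rwa [sub_add_cancel] at this
  obtain ⟨m, hm⟩ := h4 (φ.comp θ.toAddMonoidHom) (by
    intro a ha h0
    show φ (θ a) = 0
    refine h3 _ (hθ a ha) ((hb _).1 ?_)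
    have h5 : ℓ ∣ b a := (hb a).2 (by rw [h0]; exact dvd_zero _)
    have := dvd_add (h1 a) (Dvd.dvd.mul_left h5 q)
    rwa [sub_add_cancel] at this)
  obtain ⟨m', hm'⟩ := h4 (φ.comp θ.symm.toAddMonoidHom) (by
    intro a ha h0
    show φ (θ.symm a) = 0
    refine h3 _ (hθ' a ha) ((hb _).1 ?_)
    have h5 : ℓ ∣ b a := (hb a).2 (by rw [h0]; exact dvd_zero _)
    have h6 := h1 (θ.symm a)
    rw [θ.apply_symm_apply] at h6
    have h7 : ℓ ∣ q * b (θ.symm a) := by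
      have := dvd_sub h5 h6
      rwa [sub_sub_cancel] at this
    exact (hℓ.dvd_or_dvd h7).resolve_left hq)
  have hm1 : ∀ x, φ (θ x) = m * φ x := hm
  have hm2 : ∀ x, φ (θ.symm x) = m' * φ x := hm'
  have hφ : φ x₀ ≠ 0 := fun h => hx₀ ((hb x₀).2 (by rw [h]; exact dvd_zero _))
  have h5 : m' * m = 1 := by
    have h6 := hm1 (θ.symm x₀)
    rw [θ.apply_symm_apply, hm2] at h6
    have h7 : (m' * m - 1) * φ x₀ = 0 := by linear_combination -h6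
    rcases mul_eq_zero.1 h7 with h8 | h8
    · omega
    · exact absurd h8 hφ
  have h6 : ℓ ∣ (m - q) * b x₀ := by
    have e : (m - q) * b x₀ = (b (θ x₀) - q * b x₀) - (b (θ x₀) - κ * φ (θ x₀)) + m * (b x₀ - κ * φ x₀) := by
      rw [hm1]; ring
    rw [e]
    exact dvd_add (dvd_sub (h1 x₀) (h2 _)) (Dvd.dvd.mul_left (h2 x₀) m)
  have h7 := (hℓ.dvd_or_dvd h6).resolve_right hx₀
  have h8 : m = 1 ∨ m = -1 := Int.eq_one_or_neg_one_of_mul_eq_one' (by linarith : m * m' = 1) |>.elim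
    (fun h => Or.inl h.1) (fun h => Or.inr h.1)
  rcases h8 with rfl | rfl
  · left
    have := dvd_neg.2 h7
    rwa [neg_sub] at this
  · right
    have := dvd_neg.2 h7
    have e : -(-1 - q) = q + 1 := by ring
    rwa [e] at this

section

variable {D : ChevalleyDatum} {l : ℕ} {M : CoxeterMatrix (Fin l)} {hp : IsType D l M} {r q : ℕ} [hrp : Fact r.Prime]
  {K₀ : Type v} [Group K₀] {m : MData hp r q K₀} {s : ↥(D.group (KK r))}

/-- `θ` in the coordinates given by `w` -/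
noncomputable def tw (f : TorForm m s) (w : M.Group) : (Fin l → ℤ) ≃+ (Fin l → ℤ) :=
  (repAut M.toCoxeterSystem hp.isCartan w).trans (f.θ.trans (repAut M.toCoxeterSystem hp.isCartan w).symm)

theorem rep_tw (f : TorForm m s) (w : M.Group) (x : Fin l → ℤ) :
    rep M.toCoxeterSystem hp.isCartan w (tw f w x) = f.θ (rep M.toCoxeterSystem hp.isCartan w x) :=
  (repAut M.toCoxeterSystem hp.isCartan w).apply_symm_apply _

theorem isRoot_rep {w : M.Group} {x : Fin l → ℤ} :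
    IsRoot M.toCoxeterSystem hp.isCartan (rep M.toCoxeterSystem hp.isCartan w x) ↔
      IsRoot M.toCoxeterSystem hp.isCartan x := by
  constructor
  · intro h
    have h1 := h.act w⁻¹
    rwa [← rep_mul_apply, inv_mul_cancel, map_one, Module.End.one_apply] at h1
  · exact fun h => h.act w

theorem isRoot_tw (f : TorForm m s) (w : M.Group) (x : Fin l → ℤ) :
    IsRoot M.toCoxeterSystem hp.isCartan (tw f w x) ↔ IsRoot M.toCoxeterSystem hp.isCartan x := by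
  rw [← isRoot_rep (hp := hp) (w := w), rep_tw, f.fr.root, isRoot_rep (hp := hp)]

/-- the congruence -/
theorem tw_dvd (f : TorForm m s) {ℓ : ℕ} (hℓ : 0 < ℓ) {ζ : KK r} (hζ : IsPrimitiveRoot ζ ℓ) {w : M.Group} {c : Fin l → ℕ}
    (hc : ∀ x, cX hp f.t (rep M.toCoxeterSystem hp.isCartan w x) = ζ ^ (∑ i, x i * (c i : ℤ))) (x : Fin l → ℤ) :
    (ℓ : ℤ) ∣ psi (fun i => (c i : ℤ)) (tw f w x) - q * psi (fun i => (c i : ℤ)) x := by
  have h1 := cX_sigma hp M.toCoxeterSystem f.frob f.fr f.mem (rep M.toCoxeterSystem hp.isCartan w x)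
  rw [f.fix, ← rep_tw, hc, hc, m.hq] at h1
  have h0 : ζ ≠ 0 := hζ.ne_zero hℓ.ne'
  rw [← hζ.zpow_eq_one_iff_dvd, zpow_sub₀ h0, psi_apply, psi_apply, h1, ← zpow_natCast, ← zpow_mul, mul_comm (q : ℤ),
    div_self (zpow_ne_zero _ h0)]

end

section E6

variable {M : CoxeterMatrix (Fin 6)} {hp : IsType chevE6 6 M} {r q : ℕ} [hrp : Fact r.Prime]
  {K₀ : Type v} [Group K₀] {m : MData hp r q K₀} {s : ↥(chevE6.group (KK r))}

theorem hr_E6 : hr chevE6 6 = ![1, 2, 2, 3, 2, 1] := by decide +kernel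

/-- the bounds for the coordinates of the roots -/
theorem root_bd {a : Fin 6 → ℤ} (ha : IsRoot M.toCoxeterSystem hp.isCartan a) :
    (0 ≤ a ∧ a 0 ≤ 1 ∧ a 3 ≤ 3 ∧ a 5 ≤ 1) ∨ (a ≤ 0 ∧ -1 ≤ a 0 ∧ -3 ≤ a 3 ∧ -1 ≤ a 5) := by
  obtain ⟨Bm, hv, v, C, H⟩ := exists_ok hp
  have e0 : hr chevE6 6 0 = 1 := by rw [hr_E6]; rfl
  have e3 : hr chevE6 6 3 = 3 := by rw [hr_E6]; rfl
  have e5 : hr chevE6 6 5 = 1 := by rw [hr_E6]; rfl
  rcases ha.pos_or_neg with h | h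
  · left
    have h0 := le_hr hp H ha 0
    have h3 := le_hr hp H ha 3
    have h5 := le_hr hp H ha 5
    rw [e0] at h0
    rw [e3] at h3
    rw [e5] at h5
    exact ⟨h, h0, h3, h5⟩
  · right
    have h0 := le_hr hp H ha.neg 0
    have h3 := le_hr hp H ha.neg 3
    have h5 := le_hr hp H ha.neg 5
    rw [e0, Pi.neg_apply] at h0
    rw [e3, Pi.neg_apply] at h3
    rw [e5, Pi.neg_apply] at h5
    exact ⟨h, by omega, by omega, by omega⟩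

theorem eq_six (x : Fin 6 → ℤ) (ψ : (Fin 6 → ℤ) →+ ℤ) : ψ x = x 0 * ψ (sr 0) + x 1 * ψ (sr 1) + x 2 * ψ (sr 2) +
    x 3 * ψ (sr 3) + x 4 * ψ (sr 4) + x 5 * ψ (sr 5) := by
  rw [eq_psi ψ x]
  simp only [Fin.sum_univ_six]

/-- **The rank one lemma.** -/
theorem rank_one_E6 (f : TorForm m s) {ℓ : ℕ} (hℓ : ℓ.Prime) (hℓr : ℓ ≠ r) {ζ : KK r} (hζ : IsPrimitiveRoot ζ ℓ)
    {w : M.Group} {c : Fin 6 → ℕ} {c0 : ℕ} (K : Kac chevE6 6 ℓ c c0)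
    (hc : ∀ x, cX hp f.t (rep M.toCoxeterSystem hp.isCartan w x) = ζ ^ (∑ i, x i * (c i : ℤ)))
    (h1 : c 1 = 0) (h2 : c 2 = 0) (h4 : c 4 = 0) (h3 : c 3 ≠ 0)
    (hend : (c0 ≠ 0 ∧ c 0 = 0 ∧ c 5 = 0) ∨ (c0 = 0 ∧ c 0 ≠ 0 ∧ c 5 = 0) ∨ (c0 = 0 ∧ c 0 = 0 ∧ c 5 ≠ 0)) :
    5 ≤ ℓ ∧ (ℓ ∣ q - 1 ∨ ℓ ∣ q + 1) := by
  have hK := K.sum
  rw [hr_E6] at hK
  simp only [Fin.sum_univ_six] at hK
  have e : ((![1, 2, 2, 3, 2, 1] : Fin 6 → ℤ) 0 = 1) ∧ ((![1, 2, 2, 3, 2, 1] : Fin 6 → ℤ) 3 = 3) ∧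
    ((![1, 2, 2, 3, 2, 1] : Fin 6 → ℤ) 5 = 1) := ⟨rfl, rfl, rfl⟩
  rw [h1, h2, h4, e.1, e.2.1, e.2.2] at hK
  push_cast at hK
  have hsum : c0 + c 0 + 3 * c 3 + c 5 = ℓ := by
    have : ((c0 + c 0 + 3 * c 3 + c 5 : ℕ) : ℤ) = (ℓ : ℤ) := by push_cast; linarith
    exact_mod_cast this
  have h5 : 5 ≤ ℓ := by
    rcases Nat.lt_or_ge ℓ 5 with h | h
    · exfalso
      have h6 : 4 ≤ ℓ := by omega
      have h7 : ℓ = 4 := by omega
      rw [h7] at hℓ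
      exact absurd hℓ (by norm_num)
    · exact h
  refine ⟨h5, ?_⟩
  have hℓZ : Prime (ℓ : ℤ) := Nat.prime_iff_prime_int.1 hℓ
  have hq0 : 0 < q := by rw [← m.hq]; exact pow_pos hrp.out.pos _
  have hqℓ : ¬ (ℓ : ℤ) ∣ q := by
    intro h
    have h6 : ℓ ∣ q := by exact_mod_cast h
    rw [← m.hq] at h6
    exact hℓr ((Nat.prime_dvd_prime_iff_eq hℓ hrp.out).1 (hℓ.dvd_of_dvd_pow h6))
  have h3ℓ : ¬ (ℓ : ℤ) ∣ (c 3 : ℤ) := by
    intro h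
    have h6 : ℓ ∣ c 3 := by exact_mod_cast h
    have := Nat.le_of_dvd (Nat.pos_of_ne_zero h3) h6
    omega
  -- it suffices to have the integer form
  suffices H : (ℓ : ℤ) ∣ (q : ℤ) - 1 ∨ (ℓ : ℤ) ∣ (q : ℤ) + 1 by
    rcases H with h | h
    · left
      have e1 : ((q - 1 : ℕ) : ℤ) = (q : ℤ) - 1 := by push_cast [Nat.cast_sub hq0]; ring
      rw [← e1] at h
      exact_mod_cast h
    · right
      exact_mod_cast h
  set b : (Fin 6 → ℤ) →+ ℤ := psi (fun i => (c i : ℤ)) with hb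
  have hbx : ∀ x, b x = x 0 * (c 0 : ℤ) + x 3 * (c 3 : ℤ) + x 5 * (c 5 : ℤ) := by
    intro x
    rw [hb, psi_apply, Fin.sum_univ_six, h1, h2, h4]
    push_cast
    ring
  have hθ : ∀ a, IsRoot M.toCoxeterSystem hp.isCartan a → IsRoot M.toCoxeterSystem hp.isCartan (tw f w a) :=
    fun a => (isRoot_tw f w a).2
  have hθ' : ∀ a, IsRoot M.toCoxeterSystem hp.isCartan a → IsRoot M.toCoxeterSystem hp.isCartan ((tw f w).symm a) := by
    intro a ha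
    rw [← isRoot_tw f w, (tw f w).apply_symm_apply]
    exact ha
  have hdvd : ∀ x, (ℓ : ℤ) ∣ b (tw f w x) - q * b x := tw_dvd f hℓ.pos hζ hc
  have hx₀ : ¬ (ℓ : ℤ) ∣ b (sr 3) := by
    rw [hbx]
    have e3 : (sr 3 : Fin 6 → ℤ) 0 = 0 ∧ (sr 3 : Fin 6 → ℤ) 3 = 1 ∧ (sr 3 : Fin 6 → ℤ) 5 = 0 := by decide
    rw [e3.1, e3.2.1, e3.2.2, zero_mul, one_mul, zero_mul, zero_add, add_zero]
    exact h3ℓ
  have key : ∀ (u v : ℤ), ∃ φ : (Fin 6 → ℤ) →+ ℤ, ∀ x, φ x = x 3 - 3 * u * x 0 - 3 * v * x 5 := by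
    intro u v
    refine ⟨psi ![-3 * u, 0, 0, 1, 0, -3 * v], fun x => ?_⟩
    rw [psi_apply, Fin.sum_univ_six]
    show x 0 * (-3 * u) + x 1 * 0 + x 2 * 0 + x 3 * 1 + x 4 * 0 + x 5 * (-3 * v) = _
    ring
  have hsr : ∀ i, IsRoot M.toCoxeterSystem hp.isCartan (sr i) := isRoot_sr M.toCoxeterSystem hp.isCartan
  have hhr : IsRoot M.toCoxeterSystem hp.isCartan (hr chevE6 6) := by
    obtain ⟨Bm, hv, v, C, H⟩ := exists_ok hp
    exact isRoot_hr hp H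
  -- small multiples of `ℓ`
  have hsmall : ∀ z : ℤ, -3 ≤ z → z ≤ 3 → (ℓ : ℤ) ∣ z → z = 0 := by
    intro z hz1 hz2 ⟨k, hk⟩
    have h6 : (5 : ℤ) ≤ ℓ := by exact_mod_cast h5
    rcases lt_trichotomy k 0 with h | h | h
    · nlinarith
    · rw [hk, h, mul_zero]
    · nlinarith
  rcases hend with ⟨ha, hb0, hc0⟩ | ⟨ha, hb0, hc0⟩ | ⟨ha, hb0, hc0⟩
  · obtain ⟨φ, hφ⟩ := key 0 0
    refine rank_one (κ := c 3) hℓZ hθ hθ' (φ := φ) hdvd h3ℓ (fun x => ?_) (fun a ha' hd => ?_) (fun ψ hψ => ?_) hx₀ hqℓ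
    · rw [hbx, hφ, hb0, hc0]
      have : (x 0 * ((0 : ℕ) : ℤ) + x 3 * (c 3 : ℤ) + x 5 * ((0 : ℕ) : ℤ) - (c 3 : ℤ) * (x 3 - 3 * 0 * x 0 - 3 * 0 * x 5)) = 0 := by
        push_cast; ring
      rw [this]
      exact dvd_zero _
    · refine hsmall _ ?_ ?_ hd <;> rw [hφ] <;> rcases root_bd (hp := hp) ha' with ⟨k1, k2, k3, k4⟩ | ⟨k1, k2, k3, k4⟩ <;>
        have k5 := k1 3 <;> simp only [Pi.zero_apply] at k5 <;> linarith
    · have z0 := hψ _ (hsr 0) (by rw [hφ]; decide)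
      have z1 := hψ _ (hsr 1) (by rw [hφ]; decide)
      have z2 := hψ _ (hsr 2) (by rw [hφ]; decide)
      have z4 := hψ _ (hsr 4) (by rw [hφ]; decide)
      have z5 := hψ _ (hsr 5) (by rw [hφ]; decide)
      refine ⟨ψ (sr 3), fun x => ?_⟩
      rw [eq_six x ψ, z0, z1, z2, z4, z5, hφ]
      ring
  · obtain ⟨φ, hφ⟩ := key 1 0
    refine rank_one (κ := c 3) hℓZ hθ hθ' (φ := φ) hdvd h3ℓ (fun x => ?_) (fun a ha' hd => ?_) (fun ψ hψ => ?_) hx₀ hqℓ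
    · rw [hbx, hφ, hc0]
      refine ⟨x 0, ?_⟩
      rw [← hsum, ha, hc0]
      push_cast
      ring
    · refine hsmall _ ?_ ?_ hd <;> rw [hφ] <;> rcases root_bd (hp := hp) ha' with ⟨k1, k2, k3, k4⟩ | ⟨k1, k2, k3, k4⟩ <;>
        have k5 := k1 3 <;> have k6 := k1 0 <;> simp only [Pi.zero_apply] at k5 k6 <;> linarith
    · have z1 := hψ _ (hsr 1) (by rw [hφ]; decide)
      have z2 := hψ _ (hsr 2) (by rw [hφ]; decide)
      have z4 := hψ _ (hsr 4) (by rw [hφ]; decide)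
      have z5 := hψ _ (hsr 5) (by rw [hφ]; decide)
      have zh := hψ _ hhr (by rw [hφ, hr_E6]; decide)
      rw [eq_six _ ψ, z1, z2, z4, z5, hr_E6] at zh
      refine ⟨ψ (sr 3), fun x => ?_⟩
      rw [eq_six x ψ, z1, z2, z4, z5, hφ]
      have zh' : ψ (sr 0) = -3 * ψ (sr 3) := by
        have e6 : (1 : ℤ) * ψ (sr 0) + 3 * ψ (sr 3) = 0 := by
          have := zh
          simp only [mul_zero, add_zero] at this
          exact this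
        linarith
      rw [zh']
      ring
  · obtain ⟨φ, hφ⟩ := key 0 1
    refine rank_one (κ := c 3) hℓZ hθ hθ' (φ := φ) hdvd h3ℓ (fun x => ?_) (fun a ha' hd => ?_) (fun ψ hψ => ?_) hx₀ hqℓ
    · rw [hbx, hφ, hb0]
      refine ⟨x 5, ?_⟩
      rw [← hsum, ha, hb0]
      push_cast
      ring
    · refine hsmall _ ?_ ?_ hd <;> rw [hφ] <;> rcases root_bd (hp := hp) ha' with ⟨k1, k2, k3, k4⟩ | ⟨k1, k2, k3, k4⟩ <;>
        have k5 := k1 3 <;> have k6 := k1 5 <;> simp only [Pi.zero_apply] at k5 k6 <;> linarith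
    · have z0 := hψ _ (hsr 0) (by rw [hφ]; decide)
      have z1 := hψ _ (hsr 1) (by rw [hφ]; decide)
      have z2 := hψ _ (hsr 2) (by rw [hφ]; decide)
      have z4 := hψ _ (hsr 4) (by rw [hφ]; decide)
      have zh := hψ _ hhr (by rw [hφ, hr_E6]; decide)
      rw [eq_six _ ψ, z0, z1, z2, z4, hr_E6] at zh
      refine ⟨ψ (sr 3), fun x => ?_⟩
      rw [eq_six x ψ, z0, z1, z2, z4, hφ]
      have zh' : ψ (sr 5) = -3 * ψ (sr 3) := by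
        have e6 : (3 : ℤ) * ψ (sr 3) + 1 * ψ (sr 5) = 0 := by
          have := zh
          simp only [mul_zero, zero_add, add_zero] at this
          exact this
        linarith
      rw [zh']
      ring

end E6

end Cfsg.Agent.H318.RG
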