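import Cfsg.Agent.H318.RG.RankOne
import Cfsg.Agent.H931.KC.Stab

/-!
# S3509, `E6(q)` and `2E6(q)`: the rank one lemma, all pairs of nodes containing `α₄` (helper318)

`rank_one_node` : if `c 3 ≠ 0` and exactly one more extended node has Kac coordinate `≠ 0` then `5 ≤ ℓ` and `ℓ ∣ q - 1` or
`ℓ ∣ q + 1`.
-/

set_option autoImplicit false
set_option linter.unusedSectionVars false

namespace Cfsg.Agent.H318.RG

open CoxeterSystem Cfsg Cfsg.Lie Cfsg.Lie.ChevalleyDatum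
open Cfsg.Agent.ChevalleyStructure Cfsg.Agent.ChevalleyStructure.Elts Cfsg.Agent.ChevalleyStructure.CoxeterGeom
  Cfsg.Agent.ChevalleyStructure.CoxeterGeomTypes Cfsg.Agent.ChevalleyStructure.NPerm
open Cfsg.Agent.Tits.Roots Cfsg.Agent.Tits.Core Cfsg.Agent.Nodes Cfsg.Agent.Nodes.Reps Cfsg.Agent.Nodes.BNOf
  Cfsg.Agent.Nodes.RGDChev Cfsg.Agent.Nodes.Bruhat Cfsg.Agent.Nodes.NormalForm
open Cfsg.Agent.KFacts.RgdField Cfsg.Agent.KFacts.RgdChevCoord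
open Cfsg.Agent.BpExc Cfsg.Agent.BpExc.TorCent Cfsg.Agent.BpExc.TorChev Cfsg.Agent.BpExc.Tow
  Cfsg.Agent.BpExc.TowChev Cfsg.Agent.BpExc.Fr Cfsg.Agent.BpExc.Pair Cfsg.Agent.BpExc.LangFr Cfsg.Agent.GpExc.Field
open Cfsg.Agent.H469.Exc Cfsg.Agent.H316.U6 Cfsg.Agent.H169.RG Cfsg.Agent.H931.KC
open Cfsg.Agent.H129.TorusChar Cfsg.Agent.H129.WData

universe u v

/-- **The abstract rank one lemma**, general form. -/
theorem rank_one' {l : ℕ} {ℓ q κ μ : ℤ} (hℓ : Prime ℓ) {R : (Fin l → ℤ) → Prop} {θ : (Fin l → ℤ) ≃+ (Fin l → ℤ)}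
    (hθ : ∀ a, R a → R (θ a)) (hθ' : ∀ a, R a → R (θ.symm a)) {b φ : (Fin l → ℤ) →+ ℤ}
    (h1 : ∀ x, ℓ ∣ b (θ x) - q * b x) (hκ : ¬ ℓ ∣ κ) (hμ : ¬ ℓ ∣ μ) (h2 : ∀ x, ℓ ∣ μ * b x - κ * φ x)
    (h3 : ∀ a, R a → ℓ ∣ φ a → φ a = 0)
    (h4 : ∀ ψ : (Fin l → ℤ) →+ ℤ, (∀ a, R a → φ a = 0 → ψ a = 0) → ∃ m : ℤ, ∀ x, ψ x = m * φ x)
    {x₀ : Fin l → ℤ} (hx₀ : ¬ ℓ ∣ b x₀) (hq : ¬ ℓ ∣ q) : ℓ ∣ q - 1 ∨ ℓ ∣ q + 1 := by
  have e : ∀ x, ((AddMonoidHom.mulLeft μ).comp b) x = μ * b x := fun x => rfl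
  refine rank_one (b := (AddMonoidHom.mulLeft μ).comp b) (φ := φ) (x₀ := x₀) hℓ hθ hθ' (fun x => ?_) hκ (fun x => ?_) h3 h4 ?_ hq
  · rw [e, e]
    have e2 : μ * b (θ x) - q * (μ * b x) = μ * (b (θ x) - q * b x) := by ring
    rw [e2]
    exact Dvd.dvd.mul_left (h1 x) μ
  · rw [e]
    exact h2 x
  · rw [e]
    exact fun h => (hℓ.dvd_or_dvd h).elim hμ hx₀

section E6

variable {M : CoxeterMatrix (Fin 6)} {hp : IsType chevE6 6 M} {r q : ℕ} [hrp : Fact r.Prime]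
  {K₀ : Type v} [Group K₀] {m : MData hp r q K₀} {s : ↥(chevE6.group (KK r))}

theorem vec_bd : ∀ a : Fin chevE6.nroots, ∀ j : Fin 6, (j = 1 ∨ j = 2 ∨ j = 4) →
    -4 ≤ 2 * vec chevE6 6 a 3 - 3 * vec chevE6 6 a j ∧ 2 * vec chevE6 6 a 3 - 3 * vec chevE6 6 a j ≤ 4 := by
  decide +kernel

theorem root_bd2 {a : Fin 6 → ℤ} (ha : IsRoot M.toCoxeterSystem hp.isCartan a) {j : Fin 6} (hj : j = 1 ∨ j = 2 ∨ j = 4) :
    -4 ≤ 2 * a 3 - 3 * a j ∧ 2 * a 3 - 3 * a j ≤ 4 := by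
  obtain ⟨t, ht, rfl⟩ := (isRoot_iff hp M.toCoxeterSystem a).1 ha
  exact vec_bd ⟨t, ht⟩ j hj

/-- the middle nodes -/
theorem rank_one_mid (f : TorForm m s) {ℓ : ℕ} (hℓ : ℓ.Prime) (hℓr : ℓ ≠ r) {ζ : KK r} (hζ : IsPrimitiveRoot ζ ℓ)
    {w : M.Group} {c : Fin 6 → ℕ} {c0 : ℕ} (K : Kac chevE6 6 ℓ c c0)
    (hc : ∀ x, cX hp f.t (rep M.toCoxeterSystem hp.isCartan w x) = ζ ^ (∑ i, x i * (c i : ℤ)))
    (h3 : c 3 ≠ 0) {j : Fin 6} (hj : j = 1 ∨ j = 2 ∨ j = 4) (hcj : c j ≠ 0) (hc0 : c0 = 0)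
    (hall : ∀ i, i ≠ j → i ≠ 3 → c i = 0) : 5 ≤ ℓ ∧ (ℓ ∣ q - 1 ∨ ℓ ∣ q + 1) := by
  have hj3 : j ≠ 3 := by rcases hj with rfl | rfl | rfl <;> decide
  have hsum2 : ∀ g : Fin 6 → ℤ, ∑ i, g i * (c i : ℤ) = g 3 * (c 3 : ℤ) + g j * (c j : ℤ) := by
    intro g
    rw [← Finset.add_sum_erase Finset.univ _ (Finset.mem_univ (3 : Fin 6)),
      ← Finset.add_sum_erase (Finset.univ.erase 3) _ (Finset.mem_erase.2 ⟨hj3, Finset.mem_univ j⟩),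
      Finset.sum_eq_zero, add_zero]
    intro i hi
    rw [Finset.mem_erase, Finset.mem_erase] at hi
    rw [hall i hi.1 hi.2.1, Nat.cast_zero, mul_zero]
  have hK := K.sum
  rw [hsum2, hr_E6] at hK
  have e3 : ((![1, 2, 2, 3, 2, 1] : Fin 6 → ℤ) 3 = 3) := rfl
  have ej : ((![1, 2, 2, 3, 2, 1] : Fin 6 → ℤ) j = 2) := by rcases hj with rfl | rfl | rfl <;> rfl
  rw [e3, ej, hc0] at hK
  have hsum : 3 * c 3 + 2 * c j = ℓ := by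
    have : ((3 * c 3 + 2 * c j : ℕ) : ℤ) = (ℓ : ℤ) := by push_cast at hK ⊢; linarith
    exact_mod_cast this
  have h5 : 5 ≤ ℓ := by omega
  refine ⟨h5, ?_⟩
  have hℓZ : Prime (ℓ : ℤ) := Nat.prime_iff_prime_int.1 hℓ
  have hq0 : 0 < q := by rw [← m.hq]; exact pow_pos hrp.out.pos _
  have hqℓ : ¬ (ℓ : ℤ) ∣ q := by
    intro h
    have h6 : ℓ ∣ q := by exact_mod_cast h
    rw [← m.hq] at h6
    exact hℓr ((Nat.prime_dvd_prime_iff_eq hℓ hrp.out).1 (hℓ.dvd_of_dvd_pow h6))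
  have h3ℓ : ¬ (ℓ : ℤ) ∣ (c 3 : ℤ) := by
    intro h
    have h6 : ℓ ∣ c 3 := by exact_mod_cast h
    have := Nat.le_of_dvd (Nat.pos_of_ne_zero h3) h6
    omega
  have h2ℓ : ¬ (ℓ : ℤ) ∣ (2 : ℤ) := by
    intro h
    have h6 : ℓ ∣ 2 := by exact_mod_cast h
    have := Nat.le_of_dvd (by norm_num) h6
    omega
  suffices H : (ℓ : ℤ) ∣ (q : ℤ) - 1 ∨ (ℓ : ℤ) ∣ (q : ℤ) + 1 by
    rcases H with h | h
    · left
      have e1 : ((q - 1 : ℕ) : ℤ) = (q : ℤ) - 1 := by push_cast [Nat.cast_sub hq0]; ring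
      rw [← e1] at h
      exact_mod_cast h
    · right
      exact_mod_cast h
  set b : (Fin 6 → ℤ) →+ ℤ := psi (fun i => (c i : ℤ)) with hb
  have hbx : ∀ x, b x = x 3 * (c 3 : ℤ) + x j * (c j : ℤ) := by
    intro x
    rw [hb, psi_apply, hsum2]
  have hθ : ∀ a, IsRoot M.toCoxeterSystem hp.isCartan a → IsRoot M.toCoxeterSystem hp.isCartan (tw f w a) :=
    fun a => (isRoot_tw f w a).2
  have hθ' : ∀ a, IsRoot M.toCoxeterSystem hp.isCartan a → IsRoot M.toCoxeterSystem hp.isCartan ((tw f w).symm a) := by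
    intro a ha
    rw [← isRoot_tw f w, (tw f w).apply_symm_apply]
    exact ha
  have hdvd : ∀ x, (ℓ : ℤ) ∣ b (tw f w x) - q * b x := tw_dvd f hℓ.pos hζ hc
  have hx₀ : ¬ (ℓ : ℤ) ∣ b (sr 3) := by
    rw [hbx, sr_self, sr_ne hj3, one_mul, zero_mul, add_zero]
    exact h3ℓ
  obtain ⟨φ, hφ⟩ : ∃ φ : (Fin 6 → ℤ) →+ ℤ, ∀ x, φ x = 2 * x 3 - 3 * x j := by
    refine ⟨AddMonoidHom.mk' (fun x => 2 * x 3 - 3 * x j) (fun x y => ?_), fun x => rfl⟩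
    simp only [Pi.add_apply]
    ring
  have hsr : ∀ i, IsRoot M.toCoxeterSystem hp.isCartan (sr i) := isRoot_sr M.toCoxeterSystem hp.isCartan
  have hhr : IsRoot M.toCoxeterSystem hp.isCartan (hr chevE6 6) := by
    obtain ⟨Bm, hv, v, C, H⟩ := exists_ok hp
    exact isRoot_hr hp H
  have hsmall : ∀ z : ℤ, -4 ≤ z → z ≤ 4 → (ℓ : ℤ) ∣ z → z = 0 := by
    intro z hz1 hz2 ⟨k, hk⟩
    have h6 : (5 : ℤ) ≤ ℓ := by exact_mod_cast h5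
    rcases lt_trichotomy k 0 with h | h | h
    · nlinarith
    · rw [hk, h, mul_zero]
    · nlinarith
  refine rank_one' (κ := c 3) (μ := 2) hℓZ hθ hθ' (φ := φ) hdvd h3ℓ h2ℓ (fun x => ?_) (fun a ha' hd => ?_)
    (fun ψ hψ => ?_) hx₀ hqℓ
  · rw [hbx, hφ]
    refine ⟨x j, ?_⟩
    rw [← hsum]
    push_cast
    ring
  · rw [hφ] at hd ⊢
    obtain ⟨k1, k2⟩ := root_bd2 (hp := hp) ha' hj
    exact hsmall _ k1 k2 hd
  · have hz : ∀ i, i ≠ 3 → i ≠ j → ψ (sr i) = 0 := by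
      intro i hi hij
      refine hψ _ (hsr i) ?_
      rw [hφ, sr_ne (Ne.symm hi), sr_ne (Ne.symm hij), mul_zero, mul_zero, sub_zero]
    have hsum3 : ∀ x : Fin 6 → ℤ, ψ x = x 3 * ψ (sr 3) + x j * ψ (sr j) := by
      intro x
      rw [eq_psi ψ x, ← Finset.add_sum_erase Finset.univ _ (Finset.mem_univ (3 : Fin 6)),
        ← Finset.add_sum_erase (Finset.univ.erase 3) _ (Finset.mem_erase.2 ⟨hj3, Finset.mem_univ j⟩),
        Finset.sum_eq_zero, add_zero]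
      intro i hi
      rw [Finset.mem_erase, Finset.mem_erase] at hi
      rw [hz i hi.2.1 hi.1, mul_zero]
    have zh := hψ _ hhr (by rw [hφ, hr_E6, e3, ej]; norm_num)
    rw [hsum3, hr_E6, e3, ej] at zh
    refine ⟨-(ψ (sr 3) + ψ (sr j)), fun x => ?_⟩
    rw [hsum3, hφ]
    linear_combination (x 3 - x j) * zh

/-- **The rank one lemma, all nodes.** -/
theorem rank_one_node (f : TorForm m s) {ℓ : ℕ} (hℓ : ℓ.Prime) (hℓr : ℓ ≠ r) {ζ : KK r} (hζ : IsPrimitiveRoot ζ ℓ)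
    {w : M.Group} {c : Fin 6 → ℕ} {c0 : ℕ} (K : Kac chevE6 6 ℓ c c0)
    (hc : ∀ x, cX hp f.t (rep M.toCoxeterSystem hp.isCartan w x) = ζ ^ (∑ i, x i * (c i : ℤ)))
    (h3 : c 3 ≠ 0) (h : ∃ j : Option (Fin 6), j ≠ some 3 ∧ ct c c0 j ≠ 0 ∧ ∀ i, i ≠ j → i ≠ some 3 → ct c c0 i = 0) :
    5 ≤ ℓ ∧ (ℓ ∣ q - 1 ∨ ℓ ∣ q + 1) := by
  obtain ⟨j, hj3, hj, hall⟩ := h
  have hs : ∀ i : Fin 6, some i ≠ j → i ≠ 3 → c i = 0 := fun i h1 h2 =>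
    hall (some i) h1 fun h4 => h2 (Option.some_injective _ h4)
  cases j with
  | none =>
    refine rank_one_E6 f hℓ hℓr hζ K hc (hs 1 (by simp) (by decide)) (hs 2 (by simp) (by decide))
      (hs 4 (by simp) (by decide)) h3 (Or.inl ⟨hj, hs 0 (by simp) (by decide), hs 5 (by simp) (by decide)⟩)
  | some j =>
    have hc0 : c0 = 0 := hall none (by simp) (by simp)
    have hs' : ∀ i : Fin 6, i ≠ j → i ≠ 3 → c i = 0 := fun i h1 h2 =>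
      hs i (fun h4 => h1 (Option.some_injective _ h4)) h2
    have hcj : c j ≠ 0 := hj
    have hj3' : j ≠ 3 := fun h4 => hj3 (by rw [h4])
    by_cases hm : j = 1 ∨ j = 2 ∨ j = 4
    · exact rank_one_mid f hℓ hℓr hζ K hc h3 hm hcj hc0 hs'
    · have key : ∀ j : Fin 6, j ≠ 3 → ¬ (j = 1 ∨ j = 2 ∨ j = 4) → j = 0 ∨ j = 5 := by decide
      have hj' : j = 0 ∨ j = 5 := key j hj3' hm
      rcases hj' with rfl | rfl
      · exact rank_one_E6 f hℓ hℓr hζ K hc (hs' 1 (by decide) (by decide)) (hs' 2 (by decide) (by decide))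
          (hs' 4 (by decide) (by decide)) h3 (Or.inr (Or.inl ⟨hc0, hcj, hs' 5 (by decide) (by decide)⟩))
      · exact rank_one_E6 f hℓ hℓr hζ K hc (hs' 1 (by decide) (by decide)) (hs' 2 (by decide) (by decide))
          (hs' 4 (by decide) (by decide)) h3 (Or.inr (Or.inr ⟨hc0, hs' 0 (by decide) (by decide), hcj⟩))

end E6

end Cfsg.Agent.H318.RG
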