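import Cfsg.Agent.H694.RG.Trans
import Cfsg.Agent.H318.RG.Engine2

/-!
# S3509: the engine with data in `Y`, numbers depending on the prime, extra kills (helper318)

* `engineY2` : as `H694.RG.engineY`; the bound `B r` for the centralizers of not useful elements depends on the prime
  `r`; `X` : a set of elements which do not occur in a cover by not useful elements (extra kills); the sum runs over a
  finite set `P` of primes, one member is counted twice.
-/

set_option autoImplicit false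
set_option linter.unusedSectionVars false
open Cfsg

namespace Cfsg.Agent.H318.RG

open MulAction Subgroup Cfsg.Agent.H106.RC Cfsg.Agent.H327.RG Cfsg.Agent.H368.RG Cfsg.Agent.H873.RG Cfsg.Agent.H380.RC
open Cfsg.Agent.H694.RG
open Cfsg.Agent.H28.GenF (InD)

/-- the bound for the fixed point ratio -/
noncomputable def FB (d b : ℕ) : ℝ := 1 / ((d : ℝ) + 1) + √(b : ℝ) / d

theorem FB_nonneg (d b : ℕ) : 0 ≤ FB d b := by
  unfold FB
  positivity

theorem FB_mono {d b c : ℕ} (h : b ≤ c) : FB d b ≤ FB d c := by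
  unfold FB
  have h1 : √(b : ℝ) ≤ √(c : ℝ) := Real.sqrt_le_sqrt (by exact_mod_cast h)
  have h2 : √(b : ℝ) / d ≤ √(c : ℝ) / d := div_le_div_of_nonneg_right h1 (Nat.cast_nonneg d)
  linarith

section lr

variable {G Ω : Type} [Group G] [Finite G] [MulAction G Ω] {N : Subgroup G} {Y K₀ : Type} [Group Y] [Group K₀]
variable {ι : K₀ →* Y} {σ : MulAut Y} (hF : Fr ι σ) {p : ℕ} {V : Y → Prop} {U : Y → Subgroup Y}
  (hE : Env G Ω N) (e : N ≃* K₀)

include hF in
/-- **The engine with data in `Y`**, numbers depending on the prime. -/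
theorem engineY2 [Finite ↥(fixedSubgroup σ)] [Finite K₀] [Finite Ω] [Nonempty Ω] (hp : p.Prime)
    (h : YData ι (fixedSubgroup σ) p V U) (hIH : IHx (Nat.card K₀)) {d Bm : ℕ} (hd0 : 0 < d)
    (hd : H514.DP.MinDeg K₀ d) (B : ℕ → ℕ) (X : Y → Prop)
    (hB : ∀ r : ℕ, r.Prime → r ≠ p → ∀ y ∈ fixedSubgroup σ, y ≠ 1 → y ^ r = 1 →
      ¬ Useful ι.range (fixedSubgroup σ) V y → ¬ X y → Nat.card ↥(fixedSubgroup σ ⊓ centralizer {y}) ≤ B r)
    (P : Finset ℕ)
    (hP : ∀ r : ℕ, r.Prime → r ≠ p → ∀ y ∈ fixedSubgroup σ, y ≠ 1 → y ^ r = 1 →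
      ¬ Useful ι.range (fixedSubgroup σ) V y → ¬ X y → r ∈ P)
    (hBm : ∀ r ∈ P, B r ≤ Bm)
    (hnum : ∑ r ∈ P, FB d (B r) + FB d Bm < 1) {ι' : Type} [Finite ι']
    (hX : ∀ z : ι' → G, (∀ i, z i ∈ DG hE e ι ∧ z i ≠ 1 ∧ (∃ r : ℕ, r.Prime ∧ r ≠ p ∧ z i ^ r = 1) ∧
      ¬ Useful N (DG hE e ι) (VG e ι V) (z i)) → (∀ i j, z i * z j = z j * z i) → Cov Ω z →
      ∀ i y, Rep hE e ι (z i) y → ¬ X y)
    {x : ι' → G} {r : ι' → ℕ}
    (hx : PF x r) (hcov : Cov Ω x) (hD : ∀ i, act hE e (x i) ∈ InD ι) : False := by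
  classical
  have := Fintype.ofFinite ι'
  refine engine2 hE e hIH hp (lrData hF hE e h) (le_DG hF) ?_ ?_ ?_ hx hcov hD
  · rintro u ⟨y, hy⟩ hu
    have hy' : Rep hE e ι u y := hy
    exact (Rep.mem_N hF hy').2 (h.pmem y (Rep.fix hF hy') ((Rep.pow_eq_one hF hy' p).1 hu))
  · rintro s ⟨y, hy⟩ ⟨m, hm, hsm⟩
    have hy' : Rep hE e ι s y := hy
    exact core hF hy' (h.core y (Rep.fix hF hy') ⟨m, hm, (Rep.pow_eq_one hF hy' m).1 hsm⟩)
  · intro z i₀ hz hcomm hpow hzcov
    have hXz := hX z hz hcomm hzcov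
    -- the data of a member
    have key : ∀ i (q : ℕ), q.Prime → q ≠ p → z i ^ q = 1 →
        Nat.card {c : DG hE e ι // (c : G) * z i = z i * c} ≤ B q ∧ q ∈ P := by
      intro i q hq hqp hzq
      obtain ⟨⟨y, hy⟩, h1, -, hU⟩ := hz i
      have hy' : Rep hE e ι (z i) y := hy
      have ha := Rep.fix hF hy'
      have hb : y ≠ 1 := fun h2 => h1 ((Rep.eq_one hF hy').2 h2)
      have hc := (Rep.pow_eq_one hF hy' q).1 hzq
      have hd : ¬ Useful ι.range (fixedSubgroup σ) V y := fun h2 => hU (useful hF hE e hy' h2)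
      exact ⟨(card_le hF hy').trans (hB q hq hqp y ha hb hc hd (hXz i y hy')), hP q hq hqp y ha hb hc hd (hXz i y hy')⟩
    have hkey0 : Nat.card {c : DG hE e ι // (c : G) * z i₀ = z i₀ * c} ≤ Bm := by
      obtain ⟨-, -, ⟨q, hq, hqp, hzq⟩, -⟩ := hz i₀
      obtain ⟨h1, h2⟩ := key i₀ q hq hqp hzq
      exact h1.trans (hBm q h2)
    have hkey : ∀ i, i ≠ i₀ → Nat.card {c : DG hE e ι // (c : G) * z i = z i * c} ≤ B (r i) ∧ r i ∈ P := by
      intro i hi
      obtain ⟨-, h1, ⟨q, hq, hqp, hzq⟩, -⟩ := hz i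
      have hrq : r i = q := by
        have f1 : Fact (r i).Prime := ⟨hx.prime i⟩
        have f2 : Fact q.Prime := ⟨hq⟩
        rw [← orderOf_eq_prime (hpow i hi) h1, orderOf_eq_prime hzq h1]
      exact key i (r i) (hx.prime i) (by rw [hrq]; exact hqp) (hpow i hi)
    refine H368.RC.not_cov_env hE (H := DG hE e ι) (le_DG hF) hd0
      (H368.RC.minDeg_surj hd e.symm.toMonoidHom e.symm.surjective)
      (fun i => (hz i).1) (c := fun i => if i = i₀ then Bm else B (r i)) (fun i => ?_) ?_ hzcov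
    · by_cases hi : i = i₀
      · simp only [hi, if_true]
        exact hkey0
      · simp only [if_neg hi]
        exact (hkey i hi).1
    · have h1 : ∀ i, (1 / ((d : ℝ) + 1) + √(((if i = i₀ then Bm else B (r i)) : ℕ) : ℝ) / d) =
          FB d (if i = i₀ then Bm else B (r i)) := fun i => rfl
      simp only [h1]
      rw [← Finset.add_sum_erase Finset.univ _ (Finset.mem_univ i₀)]
      have h2 : ∑ i ∈ Finset.univ.erase i₀, FB d (if i = i₀ then Bm else B (r i)) ≤ ∑ q ∈ P, FB d (B q) := by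
        calc ∑ i ∈ Finset.univ.erase i₀, FB d (if i = i₀ then Bm else B (r i))
            = ∑ i ∈ Finset.univ.erase i₀, FB d (B (r i)) := by
              refine Finset.sum_congr rfl fun i hi => ?_
              rw [if_neg (Finset.ne_of_mem_erase hi)]
          _ = ∑ q ∈ (Finset.univ.erase i₀).image r, FB d (B q) := by
              rw [Finset.sum_image fun a _ b _ hab => hx.inj hab]
          _ ≤ ∑ q ∈ P, FB d (B q) := by
              refine Finset.sum_le_sum_of_subset_of_nonneg ?_ fun _ _ _ => FB_nonneg _ _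
              intro q hq
              obtain ⟨i, hi, rfl⟩ := Finset.mem_image.1 hq
              exact (hkey i (Finset.ne_of_mem_erase hi)).2
      rw [if_pos rfl]
      linarith

end lr

end Cfsg.Agent.H318.RG
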